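import Cfsg.Agent.H419.EP.Iface
import Cfsg.Agent.H284.EP.TCrit

/-!
# The counting criteria for the preimage `Â ≤ S ≤ GL(ι, F)` (helper284)
-/

set_option autoImplicit false
set_option linter.unusedSectionVars false

namespace Cfsg.Agent.H284.Hat

open Subgroup Cfsg.Agent.H284 Cfsg.Agent.H419.EP

variable {Q : Type*} [Group Q] {A : Subgroup Q} {Γ : Subgroup (MulAut Q)}
variable {ι : Type} [Fintype ι] [DecidableEq ι] {F : Type*} [Field F] {S : Subgroup (GL ι F)} (m : Model Q S)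

/-- the subgroups `Â ∩ Â^x`, `x ∈ S`, `x ∉ Â`, containing `D` -/
def hatSet (S Ah D : Subgroup (GL ι F)) : Set (Subgroup (GL ι F)) :=
  {M | (∃ x ∈ S, x ∉ Ah ∧ M = Ah ⊓ cj x Ah) ∧ D ≤ M}

/-- the image in `Q` of a subgroup of `GL` -/
def im (D : Subgroup (GL ι F)) : Subgroup Q := (D.subgroupOf S).map m.π

theorem mem_im {D : Subgroup (GL ι F)} {q : Q} : q ∈ im m D ↔ ∃ s : S, (s : GL ι F) ∈ D ∧ m.π s = q := Iff.rfl

theorem im_le {D : Subgroup (GL ι F)} (hD : D ≤ S) {M : Subgroup Q} : im m D ≤ M ↔ D ≤ m.hat M := by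
  constructor
  · intro h d hd
    exact m.mem_hat.2 ⟨hD hd, h ⟨⟨d, hD hd⟩, hd, rfl⟩⟩
  · rintro h _ ⟨s, hs, rfl⟩
    exact (m.mem_hat_iff s).1 (h hs)

theorem index_hat : (m.hat A).relIndex S = A.index := by
  have h1 : (m.hat A).subgroupOf S = A.comap m.π := by
    ext s
    exact m.mem_hat_iff s
  rw [Subgroup.relIndex, h1, Subgroup.index_comap_of_surjective _ m.surj]

theorem relIndex_hat {C : Subgroup (GL ι F)} (hC : C ≤ S) : (m.hat A).relIndex C = A.relIndex (im m C) := by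
  have h1 : (m.hat A).relIndex C = (A.comap m.π).relIndex (C.subgroupOf S) := by
    have e1 : (A.comap m.π).map S.subtype = m.hat A := rfl
    rw [← e1]
    have e2 : C = (C.subgroupOf S).map S.subtype := by
      rw [Subgroup.subgroupOf_map_subtype, inf_eq_left.2 hC]
    conv_lhs => rw [e2]
    have e3 := Subgroup.relIndex_comap ((A.comap m.π).map S.subtype) S.subtype (C.subgroupOf S)
    rw [← e3, Subgroup.comap_map_eq_self_of_injective S.subtype_injective]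
  rw [h1, im, Subgroup.relIndex_comap]

/-- bijection of the sets of two point stabilisers -/
theorem ncard_hatSet [Finite Q] {D : Subgroup (GL ι F)} (hD : D ≤ S) :
    (hatSet S (m.hat A) D).ncard = (EPT.M0setD A (im m D)).ncard := by
  symm
  refine Set.ncard_congr (fun M _ => m.hat M) ?_ ?_ ?_
  · rintro _ ⟨⟨x, hx, rfl⟩, hDM⟩
    obtain ⟨s, rfl⟩ := m.surj x
    refine ⟨⟨s, s.2, fun e => hx ((m.mem_hat_iff s).1 e), ?_⟩, (im_le m hD).1 hDM⟩
    rw [m.hat_inf, m.hat_cj]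
  · intro M N _ _ e
    exact m.hat_injective e
  · rintro _ ⟨⟨x, hxS, hx, rfl⟩, hDM⟩
    refine ⟨A ⊓ cj (m.π ⟨x, hxS⟩) A, ⟨⟨_, fun e => hx ((m.mem_hat_iff ⟨x, hxS⟩).2 e), rfl⟩, ?_⟩, ?_⟩
    · rw [im_le m hD, m.hat_inf, m.hat_cj]
      exact hDM
    · rw [m.hat_inf, m.hat_cj]

variable (h : EPT A Γ)

include h

/-- `|S : Â| ≤ r²` -/
theorem index_le [Finite Q] : (m.hat A).relIndex S ≤ (hatSet S (m.hat A) ⊥).ncard ^ 2 := by
  rw [index_hat, ncard_hatSet m bot_le]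
  have e : EPT.M0setD A (im m (⊥ : Subgroup (GL ι F))) = {M : Subgroup Q | ∃ x, x ∉ A ∧ M = A ⊓ cj x A} := by
    have h1 : im m (⊥ : Subgroup (GL ι F)) = ⊥ := by
      rw [im, Subgroup.bot_subgroupOf, Subgroup.map_bot]
    rw [h1]
    ext M
    exact ⟨fun hM => hM.1, fun hM => ⟨hM, bot_le⟩⟩
  rw [e]
  exact h.index_le

/-- **(LP)** for `Â`: `D ≤ Â`, `C ≤ S` normalises `D` modulo scalars. -/
theorem LP [Finite Q] {D C : Subgroup (GL ι F)} (hD : D ≤ m.hat A) (hCS : C ≤ S)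
    (hC : ∀ c ∈ C, ∀ d ∈ D, ∃ d' ∈ D, ∃ z ∈ Cfsg.Geo.scalars ι F, c * d * c⁻¹ = d' * z) :
    C ≤ m.hat A ∨
      (∃ x ∈ S, x ∉ m.hat A ∧ D ≤ cj x (m.hat A) ∧
        ∀ c ∈ C, cj c (m.hat A ⊓ cj x (m.hat A)) = m.hat A ⊓ cj x (m.hat A)) ∨
      (m.hat A).relIndex C ≤ 1 + (hatSet S (m.hat A) D).ncard * ((hatSet S (m.hat A) D).ncard - 1) := by
  have hDS : D ≤ S := hD.trans (m.hat_le A)
  have hle : ∀ c ∈ im m C, cj c (im m D) ≤ im m D := by
    rintro _ ⟨c, hc, rfl⟩ _ ⟨_, ⟨d, hd, rfl⟩, rfl⟩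
    obtain ⟨d', hd', z, hz, e⟩ := hC c hc d hd
    refine ⟨⟨d', hDS hd'⟩, hd', ?_⟩
    show m.π ⟨d', hDS hd'⟩ = m.π c * m.π d * (m.π c)⁻¹
    rw [← map_inv, ← map_mul, ← map_mul, eq_comm, m.π_eq_iff]
    exact ⟨z, hz, e⟩
  have h1 := EPT.LP h (D := im m D) (C := im m C) ((im_le m hDS).2 hD) (by
    intro c hc
    apply le_antisymm (hle c hc)
    have h2 := cj_mono (x := c) (hle c⁻¹ ((im m C).inv_mem hc))
    rwa [cj_cj_inv] at h2)
  rcases h1 with h1 | ⟨M, ⟨⟨x, hx, rfl⟩, hDM⟩, h1⟩ | h1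
  · exact Or.inl ((im_le m hCS).1 h1)
  · right; left
    obtain ⟨s, rfl⟩ := m.surj x
    refine ⟨s, s.2, fun e => hx ((m.mem_hat_iff s).1 e), ?_, ?_⟩
    · rw [← m.hat_cj, ← im_le m hDS]
      exact hDM.trans inf_le_right
    · intro c hc
      have h2 := h1 (m.π ⟨c, hCS hc⟩) ⟨⟨c, hCS hc⟩, hc, rfl⟩
      rw [← m.hat_cj, ← m.hat_inf]
      have h3 := m.hat_cj (A ⊓ cj (m.π s) A) ⟨c, hCS hc⟩
      rw [h2] at h3
      exact h3.symm
  · right; right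
    rw [relIndex_hat m hCS, ncard_hatSet m hDS]
    exact h1

end Cfsg.Agent.H284.Hat
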